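import Cfsg.Agent.Lib.SPE.Tor

/-! The two isolated cyclic tori of `G₂(q)`. -/

namespace Cfsg.Lib.SPE

open Cfsg.Lib.Chev Cfsg.Lie Matrix

theorem reg2 {q r N : ℕ} (hr : r.Prime) (h3 : r ≠ 3) {s : ℤ} (hN : (N : ℤ) = q ^ 2 - s * q + 1)
    (hrN : r ∣ N) {α β : ℤ} (h : α ^ 2 + α * β * s + β ^ 2 ∣ 3) : ¬ (r : ℤ) ∣ α + β * q := by
  intro e
  have h1 : (r : ℤ) ∣ α ^ 2 + α * β * s + β ^ 2 := by
    have : α ^ 2 + α * β * s + β ^ 2 = (α + β * q) * (α + β * s - β * q) + β ^ 2 * N := by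
      rw [hN]; ring
    rw [this]
    exact dvd_add (e.mul_right _) ((Int.natCast_dvd_natCast.2 hrN).mul_left _)
  exact h3 ((Nat.prime_dvd_prime_iff_eq hr Nat.prime_three).1
    (Int.natCast_dvd_natCast.1 (h1.trans h)))

variable {F : Type*} [Field F] [Fintype F]

theorem g2_plus {q r : ℕ} (hF : Fintype.card F = q) (hr : r.Prime) (h3 : r ≠ 3)
    (h : r ∣ q ^ 2 + q + 1) : ∃ t : chevG2.group F, orderOf t = q ^ 2 + q + 1 ∧
      ∀ g : chevG2.group F, r ∣ orderOf g → orderOf g ∣ q ^ 2 + q + 1 := by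
  obtain ⟨t, h1, h2⟩ := checkedG2.iso_spec (by simp) (algG2 _) ([0, 1, 0, 1] : List (Fin 2))
    (X := .of (toM 2 2 [[1, 0], [1, -1]])) (P := .of (toM 2 2 [[1, 0], [1, -1]]))
    (a := toV 2 [1, 1]) (d := 1) (N := q ^ 2 + q + 1)
    (IsCartan.wM_wp_mul (n := 2) (isCartanG2 _) (B := [[2, -1], [-3, 2]]) (by decide +kernel)
      (by decide +kernel)) (by decide +kernel) (by decide) (by decide) hF
    (by rw [(kerDataG2 _).kerChr_eq_bot]; simp)
    (by change _ = (q : ℤ) ^ 2 + ∑ j : Fin 2, toV 2 [1, 1] j * (q : ℤ) ^ j.val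
        simp [Fin.sum_univ_succ, toV]; ring) hr h (by simpa using hr.ne_one) fun ρ => by
      have := reg2 (N := q ^ 2 + q + 1) (q := q) (s := -1) hr h3 (by push_cast; ring) h
        (α := chevG2.cartan 0 ρ + chevG2.cartan 1 ρ) (β := - chevG2.cartan 1 ρ)
        (by revert ρ; decide +kernel)
      convert this using 2
      change ∑ i : Fin 2, (∑ j : Fin 2, toM 2 2 [[1, 0], [1, -1]] i j * (q : ℤ) ^ j.val) * _ = _
      simp [Fin.sum_univ_succ, toM, toV]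
      ring
  rw [mul_one] at h1
  exact ⟨t, h1, h1 ▸ h2⟩

theorem g2_minus {q r : ℕ} (hF : Fintype.card F = q) (hr : r.Prime) (h3 : r ≠ 3)
    (h : r ∣ q ^ 2 - q + 1) : ∃ t : chevG2.group F, orderOf t = q ^ 2 - q + 1 ∧
      ∀ g : chevG2.group F, r ∣ orderOf g → orderOf g ∣ q ^ 2 - q + 1 := by
  have h0 : q ≤ q ^ 2 := Nat.le_self_pow two_ne_zero q
  obtain ⟨t, h1, h2⟩ := checkedG2.iso_spec (by simp) (algG2 _) ([0, 1] : List (Fin 2))
    (X := .of (toM 2 2 [[1, -1], [1, -2]])) (P := .of (toM 2 2 [[2, -1], [1, -1]]))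
    (a := toV 2 [1, -1]) (d := 1) (N := q ^ 2 - q + 1)
    (IsCartan.wM_wp_mul (n := 2) (isCartanG2 _) (B := [[2, -1], [-3, 2]]) (by decide +kernel)
      (by decide +kernel)) (by decide +kernel) (by decide) (by decide) hF
    (by rw [(kerDataG2 _).kerChr_eq_bot]; simp)
    (by change _ = (q : ℤ) ^ 2 + ∑ j : Fin 2, toV 2 [1, -1] j * (q : ℤ) ^ j.val
        simp [h0, Fin.sum_univ_succ, toV]; ring) hr h (by simpa using hr.ne_one) fun ρ => by
      have := reg2 (N := q ^ 2 - q + 1) (q := q) (s := 1) hr h3 (by push_cast [h0]; ring) h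
        (α := chevG2.cartan 0 ρ + chevG2.cartan 1 ρ)
        (β := - chevG2.cartan 0 ρ - 2 * chevG2.cartan 1 ρ) (by revert ρ; decide +kernel)
      convert this using 2
      change ∑ i : Fin 2, (∑ j : Fin 2, toM 2 2 [[1, -1], [1, -2]] i j * (q : ℤ) ^ j.val) * _ = _
      simp [Fin.sum_univ_succ, toM, toV]
      ring
  rw [mul_one] at h1
  exact ⟨t, h1, h1 ▸ h2⟩

end Cfsg.Lib.SPE
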