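import Cfsg.Agent.Lib.Chev.CycTor

/-!
Cyclic maximal tori whose elements of a given prime order are regular, and what this says about
element orders.
-/

namespace Cfsg.Lib.SPE

open Subgroup

variable {A B : Type*} [Group A] [Group B]

theorem orderOf_pow_div [Finite A] {u : A} {r : ℕ} (h : r ∣ orderOf u) :
    orderOf (u ^ (orderOf u / r)) = r := orderOf_pow_orderOf_div (orderOf_pos u).ne' h

/-- If the elements of order `r` of a cyclic subgroup have their centralisers inside it, every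
element of order divisible by `r` is conjugate into it. -/
theorem spec [Finite B] {t : B} {r : ℕ} (hr : r.Prime) (ht : r ∣ orderOf t)
    (hc : ∀ x ∈ zpowers t, orderOf x = r → centralizer {x} ≤ zpowers t) (g : B)
    (hg : r ∣ orderOf g) : orderOf g ∣ orderOf t := by
  haveI := Fact.mk hr
  have pg : ∀ x : B, orderOf x = r → IsPGroup r (zpowers x) := fun x hx =>
    IsPGroup.of_card (n := 1) (by rw [Nat.card_zpowers, hx, pow_one])
  have h0 := orderOf_pow_div ht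
  obtain ⟨P, hP⟩ := (pg _ h0).exists_le_sylow
  have hx0 : t ^ (orderOf t / r) ∈ (P : Subgroup B) := hP (mem_zpowers _)
  have hne : t ^ (orderOf t / r) ≠ 1 := fun e => hr.one_lt.ne (by rw [← h0, e, orderOf_one])
  haveI : Nontrivial (P : Subgroup B) := ⟨⟨⟨_, hx0⟩, 1, fun e => hne (congrArg Subtype.val e)⟩⟩
  haveI := P.2.center_nontrivial
  obtain ⟨k, hk0, hk⟩ := (P.2.to_subgroup (center (P : Subgroup B))).nontrivial_iff_card.1 ‹_›
  obtain ⟨z, hz⟩ := exists_prime_orderOf_dvd_card' (G := center (P : Subgroup B)) r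
    (hk ▸ dvd_pow_self r hk0.ne')
  have hz' : orderOf ((z : (P : Subgroup B)) : B) = r := by
    rw [Subgroup.orderOf_coe, Subgroup.orderOf_coe, hz]
  have hzc : ∀ y ∈ (P : Subgroup B), y * (z : (P : Subgroup B)) = (z : (P : Subgroup B)) * y :=
    fun y hy => congrArg Subtype.val (mem_center_iff.1 z.2 ⟨y, hy⟩)
  have hzt : ((z : (P : Subgroup B)) : B) ∈ zpowers t :=
    hc _ (pow_mem (mem_zpowers t) _) h0 (mem_centralizer_singleton_iff.2 (hzc _ hx0).symm)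
  have hPt : (P : Subgroup B) ≤ zpowers t := fun y hy =>
    hc _ hzt hz' (mem_centralizer_singleton_iff.2 (hzc y hy))
  have h1 := orderOf_pow_div hg
  obtain ⟨Q, hQ⟩ := (pg _ h1).exists_le_sylow
  obtain ⟨a, ha⟩ := MulAction.exists_smul_eq B Q P
  have hy : a * g ^ (orderOf g / r) * a⁻¹ ∈ (P : Subgroup B) := by
    rw [← ha, Sylow.coe_subgroup_smul]
    exact smul_mem_pointwise_smul _ (MulAut.conj a) _ (hQ (mem_zpowers _))
  have oc : ∀ x : B, orderOf (a * x * a⁻¹) = orderOf x := fun x =>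
    orderOf_injective (MulAut.conj a).toMonoidHom (MulAut.conj a).injective x
  rw [← oc g]
  refine orderOf_dvd_of_mem_zpowers (hc _ (hPt hy) (by rw [oc, h1])
    (mem_centralizer_singleton_iff.2 ?_))
  have := (Commute.self_pow g (orderOf g / r)).eq
  calc _ = a * (g * g ^ (orderOf g / r)) * a⁻¹ := by group
    _ = _ := by rw [this]; group

/-- Passing to a central quotient of order prime to `r`. -/
theorem quo [Finite A] (π : A →* B) (hπ : Function.Surjective π) (hZ : π.ker ≤ center A) {u : A}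
    {r : ℕ} (hr : r.Prime) (hd : ¬ r ∣ Nat.card π.ker) (hu : r ∣ orderOf u)
    (hc : ∀ x ∈ zpowers u, orderOf x = r → ∀ g, g * x = x * g → g ∈ zpowers u) :
    orderOf (π u) * Nat.card π.ker = orderOf u ∧
      ∀ x ∈ zpowers (π u), orderOf x = r → centralizer {x} ≤ zpowers (π u) := by
  haveI := Fact.mk hr
  have h3 : π.ker ≤ zpowers u := fun z hz =>
    hc _ (pow_mem (mem_zpowers u) _) (orderOf_pow_div hu) z (mem_center_iff.1 (hZ hz) _).symm
  refine ⟨?_, fun x hx ho g hg => ?_⟩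
  · rw [← Nat.card_zpowers, ← MonoidHom.map_zpowers, ← π.domRestrict_range, ← Subgroup.index_ker,
      π.ker_domRestrict, ← Nat.card_congr (Subgroup.subgroupOfEquivOfLe h3).toEquiv,
      Subgroup.index_mul_card, Nat.card_zpowers]
  · obtain ⟨g, rfl⟩ := hπ g
    rw [← MonoidHom.map_zpowers] at hx ⊢
    obtain ⟨y, hy, rfl⟩ := hx
    have kp : ∀ z ∈ π.ker, z ^ Nat.card π.ker = 1 := fun z hz =>
      congrArg Subtype.val (pow_card_eq_one' (x := (⟨z, hz⟩ : π.ker)))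
    refine ⟨g, hc (y ^ Nat.card π.ker) (pow_mem hy _) (orderOf_eq_prime ?_ fun e => hd ?_) g ?_, rfl⟩
    · rw [← pow_mul, mul_comm, pow_mul]
      exact kp _ (by rw [MonoidHom.mem_ker, map_pow, ← ho, pow_orderOf_eq_one])
    · rw [← ho]
      exact orderOf_dvd_of_pow_eq_one (by rw [← map_pow, e, map_one])
    · have h4 : y⁻¹ * (g * y * g⁻¹) ∈ π.ker := by
        rw [MonoidHom.mem_ker, map_mul, map_mul, map_mul, mem_centralizer_singleton_iff.1 hg]
        simp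
      have h5 : Commute y (y⁻¹ * (g * y * g⁻¹)) := mem_center_iff.1 (hZ h4) _
      rw [← mul_inv_eq_iff_eq_mul, ← conj_pow, ← mul_inv_cancel_left y (g * y * g⁻¹),
        h5.mul_pow, kp _ h4, mul_one]

end Cfsg.Lib.SPE

namespace Cfsg.Lib.Chev

open Finset RootSys PreSys Cfsg.Lib.Alg Cfsg.Lie Matrix Cfsg.Lib.BN

variable {k : Type*} [Field k] {Φ : Type} {G : Type*} [Group G] {G' : Type*} [Group G']

theorem ChevSys.Alg.iso_cyclic {n : ℕ} {R : RootSys (Fin n) Φ} {T : ChevTab R}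
    {C : ChevSys R k G} {p : ℕ} {φ : MulAut G} (h : C.Alg T p φ) [Fintype Φ] [Fact p.Prime]
    [CharP k p] [IsAlgClosed k] (hn : 0 < n) {σ : MulAut G} (hσ : IsSt φ σ) {m : ℕ} (hm : 0 < m)
    {γ w : Equiv.Perm Φ} (hγ : R.IsAut γ) (hw : w ∈ R.W)
    (hS : ∀ c, σ (h.tor c) = h.tor (mAct (R.wM γ * ((p ^ m : ℕ) : ℤ) • 1) c))
    {X P : Matrix (Fin n) (Fin n) ℤ} {a : Fin n → ℤ} (h1 : R.wM (w * γ)⁻¹ * X = X * cmpM a)
    (h2 : X * P = 1) (h0 : IsUnit (a ⟨0, hn⟩)) {N : ℕ}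
    (hN : (N : ℤ) = ((p ^ m : ℕ) : ℤ) ^ n + ∑ j, a j * ((p ^ m : ℕ) : ℤ) ^ j.val)
    (π : fix σ →* G') (hπ : Function.Surjective π) (hZ : π.ker ≤ Subgroup.center _)
    {r : ℕ} (hr : r.Prime) (hrN : r ∣ N) (hrd : ¬ r ∣ Nat.card π.ker)
    (hreg : ∀ ρ, ¬ (r : ℤ) ∣ R.ev ρ (X *ᵥ fun j => ((p ^ m : ℕ) : ℤ) ^ j.val)) :
    ∃ t : G', orderOf t * Nat.card π.ker = N ∧
      ∀ x ∈ Subgroup.zpowers t, orderOf x = r → Subgroup.centralizer {x} ≤ Subgroup.zpowers t := by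
  have hk : (N : k) ≠ 0 := by
    have := congrArg (Int.cast (R := k)) hN
    rw [← add_sum_erase _ _ (mem_univ ⟨0, hn⟩), Int.cast_add, Int.cast_add, Int.cast_sum,
      sum_eq_zero fun j hj => by
        simp [hm.ne', show j.val ≠ 0 from fun e => (mem_erase.1 hj).1 (Fin.ext e)]] at this
    simp only [Int.cast_natCast, Nat.cast_pow, Int.cast_pow, CharP.cast_eq_zero, zero_pow hm.ne',
      zero_pow hn.ne', pow_zero, mul_one, add_zero, zero_add] at this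
    exact this ▸ (h0.map (Int.castRingHom k)).ne_zero
  obtain ⟨ζ, h3, h4, h5⟩ := exists_gen hn h1 h2 hN hk
  have hu := (isAut_of_mem_W hw).mul hγ
  have h6 := Subgroup.ext fun c => (hu.mem_ker_iff _ c).trans (h5 c)
  have hreg' : ∀ j : ℤ, (fun i => ζ ^ (X *ᵥ fun j => ((p ^ m : ℕ) : ℤ) ^ j.val) i) ^ j ≠ 1 →
      ((fun i => ζ ^ (X *ᵥ fun j => ((p ^ m : ℕ) : ℤ) ^ j.val) i) ^ j) ^ r = 1 → ∀ ρ,
      R.chr ((fun i => ζ ^ (X *ᵥ fun j => ((p ^ m : ℕ) : ℤ) ^ j.val) i) ^ j) ρ ≠ 1 := by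
    intro j e1 e2 ρ e
    rw [← zpow_natCast, ← _root_.zpow_mul, ← orderOf_dvd_iff_zpow_eq_one, h4] at e2
    rw [Ne, ← orderOf_dvd_iff_zpow_eq_one, h4] at e1
    have e3 : R.chr ((fun i => ζ ^ (X *ᵥ fun j => ((p ^ m : ℕ) : ℤ) ^ j.val) i) ^ j) ρ =
        R.chr (fun i => ζ ^ (X *ᵥ fun j => ((p ^ m : ℕ) : ℤ) ^ j.val) i) ρ ^ j :=
      map_zpow (R.chrHom ρ) _ _
    rw [e3, chr_zpow, ← _root_.zpow_mul, ← orderOf_dvd_iff_zpow_eq_one, h3] at e
    refine e1 ?_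
    have hc : IsCoprime (r : ℤ) (R.ev ρ (X *ᵥ fun j => ((p ^ m : ℕ) : ℤ) ^ j.val)) :=
      (Nat.prime_iff_prime_int.1 hr).coprime_iff_not_dvd.2 (hreg ρ)
    obtain ⟨u, v, huv⟩ := hc
    have : j = u * (j * r) + v * (R.ev ρ (X *ᵥ fun j => ((p ^ m : ℕ) : ℤ) ^ j.val) * j) := by
      linear_combination (-j) * huv
    rw [this]
    exact dvd_add (e2.mul_left _) (e.mul_left _)
  generalize (fun i => ζ ^ (X *ᵥ fun j => ((p ^ m : ℕ) : ℤ) ^ j.val) i) = c at *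
  have hc : (mAct (R.wM w * (R.wM γ * ((p ^ m : ℕ) : ℤ) • 1) - 1)).ker = Subgroup.zpowers c := by
    rw [← mul_assoc, ← (isAut_of_mem_W hw).wM_mul, h6]
  obtain ⟨g, hg⟩ := h.exists_nw_lang hσ hw
  have := hσ.finite h.frob
  let τ := h.twTor hS hg
  let c' : (mAct (R.wM w * (R.wM γ * ((p ^ m : ℕ) : ℤ) • 1) - 1) : (Fin n → kˣ) →* _).ker :=
    ⟨c, hc ▸ Subgroup.mem_zpowers c⟩
  have h7 : τ.range = Subgroup.zpowers (τ c') := by
    rw [← MonoidHom.map_zpowers, τ.range_eq_map]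
    congr 1
    refine (eq_top_iff.2 fun x _ => ?_).symm
    obtain ⟨m, hm⟩ := hc.le x.2
    exact ⟨m, Subtype.ext hm⟩
  have h8 : orderOf (τ c') = N := by
    rw [orderOf_injective _ (h.twTor_injective hS hg), Subgroup.orderOf_mk, h4]
  obtain ⟨h9, h10⟩ := SPE.quo π hπ hZ (u := τ c') hr hrd (h8 ▸ hrN) (by
    rintro _ ⟨j, rfl⟩ ho x e
    simp only [← map_zpow] at ho e
    rw [orderOf_injective _ (h.twTor_injective hS hg), ← Subgroup.orderOf_coe,
      Subgroup.coe_zpow] at ho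
    rw [← h7]
    refine (h.mem_range_twTor hS hg).2 (h.mem_H_of_comm (hreg' j (fun e => ?_) ?_) ?_)
    · exact hr.one_lt.ne (by rw [← ho, show (c' : Fin n → kˣ) ^ j = 1 from e, orderOf_one])
    · rw [← ho]; exact pow_orderOf_eq_one _
    · have := congrArg Subtype.val e
      rw [Subgroup.coe_mul, Subgroup.coe_mul, twTor_apply] at this
      rw [← mul_right_inj g, ← mul_left_inj g⁻¹]
      simpa [mul_assoc] using this)
  exact ⟨_, h9.trans h8, h10⟩

theorem Checked.iso_cyclic {D : ChevalleyDatum} {c : Cert} (h : Checked D c) (hD : D ∈ types)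
    {F : Type*} [Field F] [Fintype F] (halg : ∀ (p : ℕ) [Fact p.Prime]
      [CharP (AlgebraicClosure F) p], (∀ t : AlgebraicClosure F, ∃ n, 0 < n ∧ t ^ p ^ n = t) →
        ∃ φ, (h.stSys (AlgebraicClosure F) hD).Alg h.T p φ)
    (l : List (Fin D.rank)) {X P : Matrix (Fin D.rank) (Fin D.rank) ℤ} {a : Fin D.rank → ℤ}
    (h1 : h.R.wM (wp h.R.sref l) * X = X * cmpM a) (h2 : X * P = 1) (hn : 0 < D.rank)
    (h0 : IsUnit (a ⟨0, hn⟩)) {q N d : ℕ} (hq : Fintype.card F = q)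
    (hd : Nat.card (h.R.kerChr F) = d) (hN : (N : ℤ) = (q : ℤ) ^ D.rank + ∑ j, a j * q ^ j.val)
    {r : ℕ} (hr : r.Prime) (hrN : r ∣ N) (hrd : ¬ r ∣ d) (hreg : ∀ ρ : Fin D.nroots,
      ¬ (r : ℤ) ∣ ∑ i, (X *ᵥ fun j => (q : ℤ) ^ j.val) i * D.cartan i ρ) :
    ∃ t : D.group F, orderOf t * d = N ∧
      ∀ x ∈ Subgroup.zpowers t, orderOf x = r → Subgroup.centralizer {x} ≤ Subgroup.zpowers t := by
  obtain ⟨p, hp⟩ := CharP.exists F
  have : Fact p.Prime := ⟨CharP.char_is_prime F p⟩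
  obtain ⟨m, hm, hF⟩ := exists_card_eq_pow (F := F) p
  obtain ⟨φ, hφ⟩ := halg p (exists_pow_pow_eq F p)
  obtain ⟨π, -, h3, h4, h5⟩ := hφ.exists_proj (algebraMap F _) hF (h.noA1 hD) (h.gsys_strongComm F)
    (h.gsys_faithful F) (h.gsys_adjoint F) (h.gsys_grp F)
  have h6 : Nat.card π.ker = d := by rw [h5, Subgroup.card_map_of_injective (hφ.fin_inj _ hF), hd]
  obtain rfl : q = p ^ m := by rw [← hq, ← hF, Nat.card_eq_fintype_card]
  rw [← h6] at hrd ⊢
  exact hφ.iso_cyclic hn (isSt_pow φ hm) hm isAut_one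
    (h.R.W.inv_mem (wp_mem_W l)) (fun c => by rw [wM_one, one_mul, hφ.pow_tor'])
    (by rwa [mul_one, inv_inv]) h2 h0 hN π h3 h4.le hr hrN hrd (by
      simpa only [ev_apply, h.cartan_eq] using hreg)

/-- The spectral form: `N / d` is an element order, and every element order divisible by `r`
divides `N / d`. -/
theorem Checked.iso_spec {D : ChevalleyDatum} {c : Cert} (h : Checked D c) (hD : D ∈ types)
    {F : Type*} [Field F] [Fintype F] [Finite (D.group F)] (halg : ∀ (p : ℕ) [Fact p.Prime]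
      [CharP (AlgebraicClosure F) p], (∀ t : AlgebraicClosure F, ∃ n, 0 < n ∧ t ^ p ^ n = t) →
        ∃ φ, (h.stSys (AlgebraicClosure F) hD).Alg h.T p φ)
    (l : List (Fin D.rank)) {X P : Matrix (Fin D.rank) (Fin D.rank) ℤ} {a : Fin D.rank → ℤ}
    (h1 : h.R.wM (wp h.R.sref l) * X = X * cmpM a) (h2 : X * P = 1) (hn : 0 < D.rank)
    (h0 : IsUnit (a ⟨0, hn⟩)) {q N d : ℕ} (hq : Fintype.card F = q)
    (hd : Nat.card (h.R.kerChr F) = d) (hN : (N : ℤ) = (q : ℤ) ^ D.rank + ∑ j, a j * q ^ j.val)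
    {r : ℕ} (hr : r.Prime) (hrN : r ∣ N) (hrd : ¬ r ∣ d) (hreg : ∀ ρ : Fin D.nroots,
      ¬ (r : ℤ) ∣ ∑ i, (X *ᵥ fun j => (q : ℤ) ^ j.val) i * D.cartan i ρ) :
    ∃ t : D.group F, orderOf t * d = N ∧ ∀ g : D.group F, r ∣ orderOf g → orderOf g ∣ orderOf t := by
  obtain ⟨t, h3, h4⟩ := h.iso_cyclic hD halg l h1 h2 hn h0 hq hd hN hr hrN hrd hreg
  exact ⟨t, h3, SPE.spec hr ((hr.dvd_mul.1 (h3 ▸ hrN)).resolve_right hrd) h4⟩

end Cfsg.Lib.Chev
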